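import Cfsg.Agent.Lib.Helper29.SuzG1.Data

set_option autoImplicit false
set_option Elab.async false

namespace Cfsg.Agent.Lib.Helper29.SuzG1

open Cfsg.Agent.Lib.Helper29.TcTrace Cfsg.Agent.Lib.Helper29.TcCert Cfsg.Agent.Lib.Helper29.TcPerm

theorem lblk_0 : chkPBlk P 4 15 256 315 0 0x5143514332432193441154414315153431445343144315343554331534355434355435314355435315314531445432955444435353444433553533355351531313535314443135535315313531354353144343554353144434531435533554353144431453143554353143554345315314355434531453154453154542542170 = true := by decide +kernel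
theorem lblk_1 : chkPBlk P 4 15 256 315 1 0x35543543193354453531453134314543154525421731451445144551445 = true := by decide +kernel
theorem lo_0_1 : ∀ b, 0 ≤ b → b < 1 → ∃ J, chkPBlk P 4 15 256 315 b J = true := fun b h1 h2 => by
  have hb : b = 0 := Nat.le_antisymm (Nat.le_of_lt_succ h2) h1
  subst hb; exact ⟨_, lblk_0⟩
theorem lo_1_2 : ∀ b, 1 ≤ b → b < 2 → ∃ J, chkPBlk P 4 15 256 315 b J = true := fun b h1 h2 => by
  have hb : b = 1 := Nat.le_antisymm (Nat.le_of_lt_succ h2) h1
  subst hb; exact ⟨_, lblk_1⟩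
theorem lo_0_2 : ∀ b, 0 ≤ b → b < 2 → ∃ J, chkPBlk P 4 15 256 315 b J = true := fun b h1 h2 =>
  if h : b < 1 then lo_0_1 b h1 h else lo_1_2 b (Nat.le_of_not_lt h) h2

end Cfsg.Agent.Lib.Helper29.SuzG1
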